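import Groth.Agent.Dual.H351.UnivArrow
import Groth.Agent.PerfC.RelPerf
import Groth.Agent.Dcoh.DerPull2

/-!
# Restriction of relative dualizing pairs to opens

For open immersions `j : U ⟶ X`, `l : S' ⟶ S` with `j ≫ f = f' ≫ l`:
* `prodMap : U ×_{S'} U ⟶ X ×_S X` (an open immersion) and the cartesian square of diagonals;
* `resPair` : the restricted rigidifying map `Δ'_* O_U ⟶ L pr₁^* (K|_U)`;
* `isRelDualizingPair_restrict`.
-/

set_option autoImplicit false
universe u
open CategoryTheory CategoryTheory.Limits AlgebraicGeometry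
attribute [local instance] HasDerivedCategory.standard

namespace Groth.Agent.Dual.H351.PairRestrict

open Groth.Agent.PerfA.Restrict (restrictD)
open Groth.Agent.PerfA Groth.Agent.PerfC
open AlgebraicGeometry.Scheme.Modules
open Groth.Agent.Dual.H351.UnivArrow

section Square

variable {X S U S' : Scheme.{u}} {f : X ⟶ S} {f' : U ⟶ S'} {j : U ⟶ X} {l : S' ⟶ S}

/-- `U ×_{S'} U ⟶ X ×_S X`. -/
noncomputable def prodMap (w : j ≫ f = f' ≫ l) : pullback f' f' ⟶ pullback f f :=
  pullback.map f' f' f f j j l w.symm w.symm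

instance [IsOpenImmersion j] [Mono l] (w : j ≫ f = f' ≫ l) : IsOpenImmersion (prodMap w) := by
  unfold prodMap
  infer_instance

lemma prodMap_fst (w : j ≫ f = f' ≫ l) :
    prodMap w ≫ pullback.fst f f = pullback.fst f' f' ≫ j := pullback.lift_fst _ _ _

lemma prodMap_snd (w : j ≫ f = f' ≫ l) :
    prodMap w ≫ pullback.snd f f = pullback.snd f' f' ≫ j := pullback.lift_snd _ _ _

lemma diagonal_prodMap (w : j ≫ f = f' ≫ l) :
    pullback.diagonal f' ≫ prodMap w = j ≫ pullback.diagonal f := by
  apply pullback.hom_ext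
  · rw [Category.assoc, Category.assoc, prodMap_fst, pullback.diagonal_fst,
      pullback.diagonal_fst_assoc, Category.comp_id]
  · rw [Category.assoc, Category.assoc, prodMap_snd, pullback.diagonal_snd,
      pullback.diagonal_snd_assoc, Category.comp_id]

lemma isPullback_diagonal [Mono j] (w : j ≫ f = f' ≫ l) :
    IsPullback j (pullback.diagonal f') (pullback.diagonal f) (prodMap w) := by
  have key1 : ∀ (s : PullbackCone (pullback.diagonal f) (prodMap w)),
      (s.snd ≫ pullback.fst f' f') ≫ j = s.fst := by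
    intro s
    have := congr($(s.condition) ≫ pullback.fst f f)
    rw [Category.assoc, pullback.diagonal_fst, Category.comp_id, Category.assoc, prodMap_fst] at this
    rw [this, Category.assoc]
  have key2 : ∀ (s : PullbackCone (pullback.diagonal f) (prodMap w)),
      (s.snd ≫ pullback.snd f' f') ≫ j = s.fst := by
    intro s
    have := congr($(s.condition) ≫ pullback.snd f f)
    rw [Category.assoc, pullback.diagonal_snd, Category.comp_id, Category.assoc, prodMap_snd] at this
    rw [this, Category.assoc]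
  refine ⟨⟨(diagonal_prodMap w).symm⟩, ⟨PullbackCone.IsLimit.mk _
    (fun s => s.snd ≫ pullback.fst f' f') key1 ?_ ?_⟩⟩
  · intro s
    apply pullback.hom_ext
    · rw [Category.assoc, pullback.diagonal_fst, Category.comp_id]
    · rw [Category.assoc, pullback.diagonal_snd, Category.comp_id]
      rw [← cancel_mono j, key1, key2]
  · intro s m h1 h2
    rw [← h2, Category.assoc, pullback.diagonal_fst, Category.comp_id]

end Square

section Unit

variable {X U : Scheme.{u}} (j : U ⟶ X) [IsOpenImmersion j]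

/-- `O_X|_U ≅ O_U` in `D(O_U)`. -/
noncomputable def unitRes : (restrictD j).obj (DCoh.inD X (Coh.structureModule X)) ≅
    DCoh.inD U (Coh.structureModule U) :=
  ((restrictFunctor j).mapDerivedCategorySingleFunctor 0).app _ ≪≫
    (DerivedCategory.singleFunctor U.Modules 0).mapIso (restrictUnitIso j)

end Unit

section Pair

variable {X S U S' : Scheme.{u}} {f : X ⟶ S} {f' : U ⟶ S'} {j : U ⟶ X} {l : S' ⟶ S}
  [IsOpenImmersion j] [IsOpenImmersion l] (w : j ≫ f = f' ≫ l)
  [DCoh.HasLpull (pullback.fst f f)] [DCoh.HasLpull (pullback.fst f' f')]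
  [PreservesFiniteLimits (Scheme.Modules.pushforward (pullback.diagonal f))]
  [PreservesFiniteColimits (Scheme.Modules.pushforward (pullback.diagonal f))]
  [PreservesFiniteLimits (Scheme.Modules.pushforward (pullback.diagonal f'))]
  [PreservesFiniteColimits (Scheme.Modules.pushforward (pullback.diagonal f'))]

/-- `(L pr₁^* K)|_{U ×_{S'} U} ≅ L pr₁^* (K|_U)`. -/
noncomputable def lpullRes : DCoh.Lpull (pullback.fst f f) ⋙ restrictD (prodMap w) ≅
    restrictD j ⋙ DCoh.Lpull (pullback.fst f' f') :=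
  Dcoh.DerPull.lpullRestrictIso (prodMap_fst w)

/-- The restriction to `U` of a rigidifying map. -/
noncomputable def resPair {K : DCoh.D X}
    (ξ : (Dual3.pushD (pullback.diagonal f)).obj (DCoh.inD X (Coh.structureModule X)) ⟶
      (DCoh.Lpull (pullback.fst f f)).obj K) :
    (Dual3.pushD (pullback.diagonal f')).obj (DCoh.inD U (Coh.structureModule U)) ⟶
      (DCoh.Lpull (pullback.fst f' f')).obj ((restrictD j).obj K) :=
  (Dual3.pushD (pullback.diagonal f')).map (unitRes j).inv ≫
    resArrow (isPullback_diagonal w) ξ ≫ (lpullRes w).hom.app K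

lemma resPair_comp {K L : DCoh.D X}
    (ξ : (Dual3.pushD (pullback.diagonal f)).obj (DCoh.inD X (Coh.structureModule X)) ⟶
      (DCoh.Lpull (pullback.fst f f)).obj K) (α : K ⟶ L) :
    resPair w (ξ ≫ (DCoh.Lpull (pullback.fst f f)).map α) =
      resPair w ξ ≫ (DCoh.Lpull (pullback.fst f' f')).map ((restrictD j).map α) := by
  rw [resPair, resPair, resArrow_comp, Category.assoc, Category.assoc, Category.assoc]
  congr 2
  exact (lpullRes w).hom.naturality α

/-- The endomorphism of `O_U` induced by an endomorphism of `O_X`. -/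
noncomputable def resEnd (u : DCoh.inD X (Coh.structureModule X) ⟶ DCoh.inD X (Coh.structureModule X)) :
    DCoh.inD U (Coh.structureModule U) ⟶ DCoh.inD U (Coh.structureModule U) :=
  (unitRes j).inv ≫ (restrictD j).map u ≫ (unitRes j).hom

lemma resPair_precomp {K : DCoh.D X}
    (u : DCoh.inD X (Coh.structureModule X) ⟶ DCoh.inD X (Coh.structureModule X))
    (ξ : (Dual3.pushD (pullback.diagonal f)).obj (DCoh.inD X (Coh.structureModule X)) ⟶
      (DCoh.Lpull (pullback.fst f f)).obj K) :
    resPair w ((Dual3.pushD (pullback.diagonal f)).map u ≫ ξ) =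
      (Dual3.pushD (pullback.diagonal f')).map (resEnd (j := j) u) ≫ resPair w ξ := by
  rw [resPair, resPair, resEnd, ← map_resArrow]
  simp only [Functor.map_comp, Category.assoc]
  congr 2
  rw [← Category.assoc ((Dual3.pushD (pullback.diagonal f')).map (unitRes j).hom),
    ← Functor.map_comp, Iso.hom_inv_id, CategoryTheory.Functor.map_id, Category.id_comp]

theorem isUnivArrow_resPair [IsSeparated f] {K : DCoh.D X}
    {ξ : (Dual3.pushD (pullback.diagonal f)).obj (DCoh.inD X (Coh.structureModule X)) ⟶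
      (DCoh.Lpull (pullback.fst f f)).obj K} (h : IsUnivArrow (pullback.diagonal f) ξ) :
    IsUnivArrow (pullback.diagonal f') (resPair w ξ) := by
  refine (h.restrict (isPullback_diagonal w)).of_iso (unitRes j) ((lpullRes w).app K) ?_
  rw [resPair, ← Category.assoc, ← Functor.map_comp, Iso.hom_inv_id,
    CategoryTheory.Functor.map_id, Category.id_comp]
  rfl

/-- The definition of `IsRelDualizingPair` through universal arrows. -/
lemma isRelDualizingPair_iff {K : DCoh.D X}
    (ξ : (Dual3.pushD (pullback.diagonal f)).obj (DCoh.inD X (Coh.structureModule X)) ⟶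
      (DCoh.Lpull (pullback.fst f f)).obj K) :
    Dual3.IsRelDualizingPair f K ξ ↔ (∀ m : ℤ, DCoh.IsPseudoCoherentD m K) ∧
      DCoh.LocHasFiniteRelTorDim f K ∧ IsUnivArrow (pullback.diagonal f) ξ := by
  rw [univArrow_iff]
  rfl

end Pair

section Tor

variable {X S U S' : Scheme.{u}} {f : X ⟶ S} {f' : U ⟶ S'} {j : U ⟶ X} {l : S' ⟶ S}
  [IsOpenImmersion j] [IsOpenImmersion l] (w : j ≫ f = f' ≫ l)

lemma hasRelFlatAmplitudeIn_comp_iff (f' : U ⟶ S') (l : S' ⟶ S) [IsOpenImmersion l] (a b : ℤ)
    (K : DCoh.D U) :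
    DCoh.HasRelFlatAmplitudeIn (f' ≫ l) a b K ↔ DCoh.HasRelFlatAmplitudeIn f' a b K := by
  constructor
  · rintro ⟨E, h1, h2, h3⟩
    exact ⟨E, h1, fun i x => (Ega3B.FlatRestrict.isFlatOverAt_comp_iff f' l _ x).1 (h2 i x), h3⟩
  · rintro ⟨E, h1, h2, h3⟩
    exact ⟨E, h1, fun i x => (Ega3B.FlatRestrict.isFlatOverAt_comp_iff f' l _ x).2 (h2 i x), h3⟩

lemma hasRelFlatAmplitudeIn_of_iso {a b : ℤ} {K L : DCoh.D X} (e : K ≅ L)
    (h : DCoh.HasRelFlatAmplitudeIn f a b K) : DCoh.HasRelFlatAmplitudeIn f a b L := by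
  obtain ⟨E, h1, h2, ⟨h3⟩⟩ := h
  exact ⟨E, h1, h2, ⟨h3 ≪≫ e⟩⟩

include w in
/-- Relative tor dimension restricts to opens of source and target. -/
theorem locHasFiniteRelTorDim_restrict {K : DCoh.D X} (h : DCoh.LocHasFiniteRelTorDim f K) :
    DCoh.LocHasFiniteRelTorDim f' ((restrictD j).obj K) := by
  rw [RelAmp.locHasFiniteRelTorDim_iff] at h ⊢
  intro x
  obtain ⟨V, a, b, hx, h1⟩ := h (j x)
  refine ⟨j ⁻¹ᵁ V, a, b, hx, ?_⟩
  have h2 := RelPerf.hasRelFlatAmplitudeIn_restrict (j ∣_ V) h1
  rw [← hasRelFlatAmplitudeIn_comp_iff ((j ⁻¹ᵁ V).ι ≫ f') l, Category.assoc, ← w,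
    ← Category.assoc, ← morphismRestrict_ι, Category.assoc]
  refine hasRelFlatAmplitudeIn_of_iso ?_ h2
  exact (Dcoh.LocalD.restrictCompEq (morphismRestrict_ι j V)).app K ≪≫
    ((Dcoh.LocalD.restrictCompEq (rfl : (j ⁻¹ᵁ V).ι ≫ j = _)).app K).symm

end Tor

section PairRes

variable {X S U S' : Scheme.{u}} {f : X ⟶ S} {f' : U ⟶ S'} {j : U ⟶ X} {l : S' ⟶ S}
  [IsOpenImmersion j] [IsOpenImmersion l] (w : j ≫ f = f' ≫ l)
  [DCoh.HasLpull (pullback.fst f f)] [DCoh.HasLpull (pullback.fst f' f')]
  [PreservesFiniteLimits (Scheme.Modules.pushforward (pullback.diagonal f))]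
  [PreservesFiniteColimits (Scheme.Modules.pushforward (pullback.diagonal f))]
  [PreservesFiniteLimits (Scheme.Modules.pushforward (pullback.diagonal f'))]
  [PreservesFiniteColimits (Scheme.Modules.pushforward (pullback.diagonal f'))]

/-- **Relative dualizing pairs restrict to opens** `U ⊆ X` lying over opens `S' ⊆ S`. -/
theorem isRelDualizingPair_restrict [IsSeparated f] {K : DCoh.D X}
    {ξ : (Dual3.pushD (pullback.diagonal f)).obj (DCoh.inD X (Coh.structureModule X)) ⟶
      (DCoh.Lpull (pullback.fst f f)).obj K} (h : Dual3.IsRelDualizingPair f K ξ) :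
    Dual3.IsRelDualizingPair f' ((restrictD j).obj K) (resPair w ξ) := by
  rw [isRelDualizingPair_iff] at h ⊢
  exact ⟨fun m => Dcoh.LocalD.isPseudoCoherentD_restrict j (h.1 m),
    locHasFiniteRelTorDim_restrict w h.2.1, isUnivArrow_resPair w h.2.2⟩

theorem isRelDualizing_restrict [IsSeparated f] {K : DCoh.D X} (w : j ≫ f = f' ≫ l)
    (h : Dual3.IsRelDualizing f K) : Dual3.IsRelDualizing f' ((restrictD j).obj K) := by
  obtain ⟨ξ, h⟩ := h
  exact ⟨_, isRelDualizingPair_restrict w h⟩

end PairRes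

end Groth.Agent.Dual.H351.PairRestrict
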