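import Groth.Agent.Dual.H351.PairRestrict
import Groth.Agent.Dual.H350.Uni
import Groth.Agent.Dual.H336.StalkIso
import Groth.Agent.Dual.H338.PushAdj
import Groth.Agent.S3630

/-!
# Universal arrows and relative dualizing pairs are local notions

* `isUnivArrow_of_cover` : universality of `ξ : i_* N ⟶ F` can be checked on a cover of `Z` by
  traces of opens of the target.
* `isUnivArrow_of_resPair_cover`, `isRelDualizingPair_of_cover` : the case of rigidifying maps.
* `isRelDualizingPair_iff_cover`.
-/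

set_option autoImplicit false
universe u
open CategoryTheory CategoryTheory.Limits AlgebraicGeometry
attribute [local instance] HasDerivedCategory.standard

namespace Groth.Agent.Dual.H351.PairLocal

open Groth.Agent.PerfA.Restrict (restrictD)
open Groth.Agent.PerfA Groth.Agent.PerfC
open AlgebraicGeometry.Scheme.Modules
open Groth.Agent.Dual.H351.UnivArrow Groth.Agent.Dual.H351.PairRestrict
open Groth.Agent.Dual.H336

section Local

variable {Z W : Scheme.{u}} (i : Z ⟶ W) [IsClosedImmersion i]
  [PreservesFiniteLimits (Scheme.Modules.pushforward i)]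
  [PreservesFiniteColimits (Scheme.Modules.pushforward i)]

/-- Every `F` admits a universal arrow `i_* N ⟶ F` for a closed immersion `i`. -/
theorem exists_univArrow (F : DCoh.D W) :
    ∃ (N : DCoh.D Z) (τ : (Dual3.pushD i).obj N ⟶ F), IsUnivArrow i τ := by
  have : Dual3.HasHomO i := S3630.result Z W i
  exact ⟨_, _, H350.Uni.isUni_counit (H338.PushAdj.pushAdj i) F⟩

variable {i}

/-- **Universality of an arrow `i_* N ⟶ F` is local.** -/
theorem isUnivArrow_of_cover {N : DCoh.D Z} {F : DCoh.D W} (ξ : (Dual3.pushD i).obj N ⟶ F)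
    (h : ∀ z : Z, ∃ (Z' W' : Scheme.{u}) (i' : Z' ⟶ W') (jZ : Z' ⟶ Z) (jW : W' ⟶ W)
      (_ : IsOpenImmersion jZ) (_ : IsOpenImmersion jW)
      (_ : PreservesFiniteLimits (Scheme.Modules.pushforward i'))
      (_ : PreservesFiniteColimits (Scheme.Modules.pushforward i'))
      (hp : IsPullback jZ i' i jW), z ∈ Set.range jZ ∧ IsUnivArrow i' (resArrow hp ξ)) :
    IsUnivArrow i ξ := by
  obtain ⟨T, τ, hτ⟩ := exists_univArrow i F
  obtain ⟨φ, hφ⟩ := (hτ N).2 ξ
  dsimp only at hφ
  have hi : IsIso φ := by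
    rw [StalkIso.isIso_iff]
    intro z
    obtain ⟨Z', W', i', jZ, jW, _, _, _, _, hp, ⟨z', rfl⟩, h1⟩ := h z
    have h2 : IsIso ((restrictD jZ).map φ) := by
      refine h1.isIso (hτ.restrict hp) ((restrictD jZ).map φ) ?_
      rw [map_resArrow, hφ]
    exact (StalkIso.isIso_restrictD_iff jZ φ).1 h2 z'
  refine hτ.of_iso (asIso φ).symm (Iso.refl _) ?_
  rw [Iso.symm_hom, asIso_inv, Iso.refl_hom, Category.comp_id, ← hφ, ← Category.assoc,
    ← Functor.map_comp, IsIso.inv_hom_id, CategoryTheory.Functor.map_id, Category.id_comp]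

end Local

section Pair

variable {X S U S' : Scheme.{u}} {f : X ⟶ S} {f' : U ⟶ S'} {j : U ⟶ X} {l : S' ⟶ S}
  [IsOpenImmersion j] [IsOpenImmersion l] (w : j ≫ f = f' ≫ l)
  [DCoh.HasLpull (pullback.fst f f)] [DCoh.HasLpull (pullback.fst f' f')]
  [PreservesFiniteLimits (Scheme.Modules.pushforward (pullback.diagonal f))]
  [PreservesFiniteColimits (Scheme.Modules.pushforward (pullback.diagonal f))]
  [PreservesFiniteLimits (Scheme.Modules.pushforward (pullback.diagonal f'))]
  [PreservesFiniteColimits (Scheme.Modules.pushforward (pullback.diagonal f'))]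

lemma isUnivArrow_resPair_iff {K : DCoh.D X}
    (ξ : (Dual3.pushD (pullback.diagonal f)).obj (DCoh.inD X (Coh.structureModule X)) ⟶
      (DCoh.Lpull (pullback.fst f f)).obj K) :
    IsUnivArrow (pullback.diagonal f') (resPair w ξ) ↔
      IsUnivArrow (pullback.diagonal f') (resArrow (isPullback_diagonal w) ξ) := by
  have e : (Dual3.pushD (pullback.diagonal f')).map (unitRes j).hom ≫ resPair w ξ =
      resArrow (isPullback_diagonal w) ξ ≫ ((lpullRes w).app K).hom := by
    rw [resPair, ← Category.assoc, ← Functor.map_comp, Iso.hom_inv_id,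
      CategoryTheory.Functor.map_id, Category.id_comp]
    rfl
  constructor
  · intro h
    refine h.of_iso (unitRes j).symm ((lpullRes w).app K).symm ?_
    rw [Iso.symm_hom, Iso.symm_hom, Iso.eq_comp_inv, Category.assoc, ← e, ← Category.assoc,
      ← Functor.map_comp, Iso.inv_hom_id, CategoryTheory.Functor.map_id, Category.id_comp]
  · intro h
    exact h.of_iso (unitRes j) ((lpullRes w).app K) e

end Pair

section Cover

variable {X S : Scheme.{u}} {f : X ⟶ S} [IsSeparated f] [DCoh.HasLpull (pullback.fst f f)]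
  [PreservesFiniteLimits (Scheme.Modules.pushforward (pullback.diagonal f))]
  [PreservesFiniteColimits (Scheme.Modules.pushforward (pullback.diagonal f))]

/-- Universality of a rigidifying map is local on `X` (over opens of `S`). -/
theorem isUnivArrow_of_resPair_cover {K : DCoh.D X}
    (ξ : (Dual3.pushD (pullback.diagonal f)).obj (DCoh.inD X (Coh.structureModule X)) ⟶
      (DCoh.Lpull (pullback.fst f f)).obj K)
    (h : ∀ x : X, ∃ (U S' : Scheme.{u}) (f' : U ⟶ S') (j : U ⟶ X) (l : S' ⟶ S)
      (_ : IsOpenImmersion j) (_ : IsOpenImmersion l) (w : j ≫ f = f' ≫ l)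
      (_ : DCoh.HasLpull (pullback.fst f' f'))
      (_ : PreservesFiniteLimits (Scheme.Modules.pushforward (pullback.diagonal f')))
      (_ : PreservesFiniteColimits (Scheme.Modules.pushforward (pullback.diagonal f'))),
      x ∈ Set.range j ∧ IsUnivArrow (pullback.diagonal f') (resPair w ξ)) :
    IsUnivArrow (pullback.diagonal f) ξ := by
  refine isUnivArrow_of_cover ξ fun x => ?_
  obtain ⟨U, S', f', j, l, _, _, w, _, _, _, hx, h1⟩ := h x
  exact ⟨U, _, pullback.diagonal f', j, prodMap w, inferInstance, inferInstance, inferInstance,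
    inferInstance, isPullback_diagonal w, hx, (isUnivArrow_resPair_iff w ξ).1 h1⟩

/-- **Relative dualizing pairs are local**: it suffices to test on a cover of `X` by opens over
opens of `S`. -/
theorem isRelDualizingPair_of_cover {K : DCoh.D X}
    (ξ : (Dual3.pushD (pullback.diagonal f)).obj (DCoh.inD X (Coh.structureModule X)) ⟶
      (DCoh.Lpull (pullback.fst f f)).obj K)
    (h : ∀ x : X, ∃ (U S' : Scheme.{u}) (f' : U ⟶ S') (j : U ⟶ X) (l : S' ⟶ S)
      (_ : IsOpenImmersion j) (_ : IsOpenImmersion l) (w : j ≫ f = f' ≫ l)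
      (_ : DCoh.HasLpull (pullback.fst f' f'))
      (_ : PreservesFiniteLimits (Scheme.Modules.pushforward (pullback.diagonal f')))
      (_ : PreservesFiniteColimits (Scheme.Modules.pushforward (pullback.diagonal f'))),
      x ∈ Set.range j ∧ Dual3.IsRelDualizingPair f' ((restrictD j).obj K) (resPair w ξ)) :
    Dual3.IsRelDualizingPair f K ξ := by
  rw [isRelDualizingPair_iff]
  refine ⟨fun m => ?_, ?_, ?_⟩
  · refine Dcoh.LocalD.isPseudoCoherentD_of_cover fun x => ?_
    obtain ⟨U, S', f', j, l, _, _, w, _, _, _, hx, h1⟩ := h x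
    exact ⟨U, j, inferInstance, hx, h1.1 m⟩
  · refine RelPerf.locHasFiniteRelTorDim_of_cover fun x => ?_
    obtain ⟨U, S', f', j, l, _, _, w, _, _, _, ⟨y, rfl⟩, h1⟩ := h x
    obtain ⟨V, a, b, hy, h2⟩ := (RelAmp.locHasFiniteRelTorDim_iff _ _).1 h1.2.1 y
    refine ⟨_, V.ι ≫ j, inferInstance, a, b, ⟨⟨y, hy⟩, rfl⟩, ?_⟩
    rw [Category.assoc, w, ← Category.assoc, hasRelFlatAmplitudeIn_comp_iff]
    exact hasRelFlatAmplitudeIn_of_iso ((Dcoh.LocalD.restrictCompEq rfl).app K) h2
  · refine isUnivArrow_of_resPair_cover ξ fun x => ?_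
    obtain ⟨U, S', f', j, l, _, _, w, _, _, _, hx, h1⟩ := h x
    exact ⟨U, S', f', j, l, inferInstance, inferInstance, w, inferInstance, inferInstance,
      inferInstance, hx, ((isRelDualizingPair_iff _).1 h1).2.2⟩

end Cover

end Groth.Agent.Dual.H351.PairLocal
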