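import Groth.Agent.PerfC.ExtZeroD
import Groth.Agent.PerfC.ClosedPush
import Groth.Agent.Sga67.ClosedPush
import Groth.Agent.Dcoh.PushRestrict
import Groth.Prelude.Def_Dual3

/-!
# Universal arrows `i_* N ⟶ F` for a closed immersion on all of `D(O)`

`IsUnivArrow i ξ` : the pair `(N, ξ : i_* N ⟶ F)` represents `M ↦ Hom(i_* M, F)` on all of `D(O_Z)`.
* `univArrow_shift` : the form with shifts used in `Dual3.IsRelDualizingPair`.
* `pushRestrictD` : `i_*` on derived categories commutes with restriction to opens (cartesian squares).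
* `resArrow`, `IsUnivArrow.restrict` : universal arrows restrict to opens of the target.
-/

set_option autoImplicit false
universe u
open CategoryTheory CategoryTheory.Limits AlgebraicGeometry
attribute [local instance] HasDerivedCategory.standard

namespace Groth.Agent.Dual.H351.UnivArrow

open Groth.Agent.PerfA.Restrict (restrictD)
open Groth.Agent.PerfA Groth.Agent.PerfC Groth.Agent.PerfC.Supp
open AlgebraicGeometry.Scheme.Modules

section Def

variable {Z W : Scheme.{u}} (i : Z ⟶ W) [PreservesFiniteLimits (Scheme.Modules.pushforward i)]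
  [PreservesFiniteColimits (Scheme.Modules.pushforward i)]

/-- `(N, ξ : i_* N ⟶ F)` represents the functor `M ↦ Hom(i_* M, F)` on `D(O_Z)`. -/
def IsUnivArrow {N : DCoh.D Z} {F : DCoh.D W} (ξ : (Dual3.pushD i).obj N ⟶ F) : Prop :=
  ∀ M : DCoh.D Z, Function.Bijective fun φ : M ⟶ N => (Dual3.pushD i).map φ ≫ ξ

variable {i}

/-- The arrow `i_* (N[j]) ⟶ F[j]`. -/
noncomputable def shiftArrow {N : DCoh.D Z} {F : DCoh.D W} (ξ : (Dual3.pushD i).obj N ⟶ F) (j : ℤ) :
    (Dual3.pushD i).obj (N⟦j⟧) ⟶ F⟦j⟧ :=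
  ((Dual3.pushD i).commShiftIso j).hom.app N ≫ (shiftFunctor (DCoh.D W) j).map ξ

lemma bijective_of_iso_source {N : DCoh.D Z} {F : DCoh.D W} (ξ : (Dual3.pushD i).obj N ⟶ F)
    {M M' : DCoh.D Z} (e : M ≅ M')
    (h : Function.Bijective fun φ : M ⟶ N => (Dual3.pushD i).map φ ≫ ξ) :
    Function.Bijective fun φ : M' ⟶ N => (Dual3.pushD i).map φ ≫ ξ := by
  have h1 : (fun φ : M' ⟶ N => (Dual3.pushD i).map φ ≫ ξ) =
      (((Dual3.pushD i).mapIso e).homFromEquiv (Z := F)) ∘
        (fun φ : M ⟶ N => (Dual3.pushD i).map φ ≫ ξ) ∘ (e.homFromEquiv (Z := N)).symm := by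
    funext φ
    simp
  rw [h1]
  exact (Equiv.bijective _).comp (h.comp (Equiv.bijective _))

lemma IsUnivArrow.shift {N : DCoh.D Z} {F : DCoh.D W} {ξ : (Dual3.pushD i).obj N ⟶ F}
    (h : IsUnivArrow i ξ) (j : ℤ) : IsUnivArrow i (shiftArrow ξ j) := by
  intro M
  refine bijective_of_iso_source _ ((shiftFunctorCompIsoId (DCoh.D Z) (-j) j (by lia)).app M) ?_
  change Function.Bijective fun φ : (M⟦-j⟧)⟦j⟧ ⟶ N⟦j⟧ => _
  have h2 := h (M⟦-j⟧)
  have h3 : Function.Bijective fun φ : M⟦-j⟧ ⟶ N =>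
      (Dual3.pushD i).map ((shiftFunctor (DCoh.D Z) j).map φ) ≫ shiftArrow ξ j := by
    have h4 : (fun φ : M⟦-j⟧ ⟶ N =>
      (Dual3.pushD i).map ((shiftFunctor (DCoh.D Z) j).map φ) ≫ shiftArrow ξ j) =
      (fun g => ((Dual3.pushD i).commShiftIso j).hom.app (M⟦-j⟧) ≫ g) ∘
        (shiftFunctor (DCoh.D W) j).map ∘ (fun φ => (Dual3.pushD i).map φ ≫ ξ) := by
      funext φ
      simp only [shiftArrow, Function.comp_apply, Functor.map_comp]
      rw [← Category.assoc, ← Category.assoc]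
      congr 1
      exact ((Dual3.pushD i).commShiftIso j).hom.naturality φ
    rw [h4]
    refine Function.Bijective.comp ?_ (Function.Bijective.comp ?_ h2)
    · exact (Iso.homFromEquiv (((Dual3.pushD i).commShiftIso j).app (M⟦-j⟧)).symm).bijective
    · exact ⟨(shiftFunctor (DCoh.D W) j).map_injective, (shiftFunctor (DCoh.D W) j).map_surjective⟩
  have h5 : (fun φ : M⟦-j⟧ ⟶ N =>
      (Dual3.pushD i).map ((shiftFunctor (DCoh.D Z) j).map φ) ≫ shiftArrow ξ j) =
      (fun φ : (M⟦-j⟧)⟦j⟧ ⟶ N⟦j⟧ => (Dual3.pushD i).map φ ≫ shiftArrow ξ j) ∘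
        (shiftFunctor (DCoh.D Z) j).map := rfl
  rw [h5] at h3
  exact (Function.Bijective.of_comp_iff _
    ⟨(shiftFunctor (DCoh.D Z) j).map_injective, (shiftFunctor (DCoh.D Z) j).map_surjective⟩).1 h3

lemma shiftArrow_zero {N : DCoh.D Z} {F : DCoh.D W} (ξ : (Dual3.pushD i).obj N ⟶ F) :
    (Dual3.pushD i).map ((shiftFunctorZero (DCoh.D Z) ℤ).inv.app N) ≫ shiftArrow ξ 0 =
      ξ ≫ (shiftFunctorZero (DCoh.D W) ℤ).inv.app F := by
  rw [shiftArrow, Functor.commShiftIso_zero, Functor.CommShift.isoZero_hom_app, Category.assoc,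
    ← Category.assoc, ← Functor.map_comp]
  simp only [Iso.inv_hom_id_app, Functor.id_obj, CategoryTheory.Functor.map_id, Category.id_comp]
  exact ((shiftFunctorZero (DCoh.D W) ℤ).inv.naturality ξ).symm

/-- The form of universality used in `Dual3.IsRelDualizingPair`. -/
lemma univArrow_iff {N : DCoh.D Z} {F : DCoh.D W} (ξ : (Dual3.pushD i).obj N ⟶ F) :
    IsUnivArrow i ξ ↔ ∀ (M : DCoh.D Z) (j : ℤ), Function.Bijective fun φ : M ⟶ N⟦j⟧ =>
      (Dual3.pushD i).map φ ≫ ((Dual3.pushD i).commShiftIso j).hom.app N ≫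
        (shiftFunctor (DCoh.D W) j).map ξ := by
  constructor
  · intro h M j
    exact h.shift j M
  · intro h M
    have h1 := h M 0
    have h2 : (fun φ : M ⟶ N => (Dual3.pushD i).map φ ≫ ξ) =
        (((shiftFunctorZero (DCoh.D W) ℤ).app F).symm.homToEquiv (Z := (Dual3.pushD i).obj M)).symm ∘
        (fun φ : M ⟶ N⟦(0 : ℤ)⟧ => (Dual3.pushD i).map φ ≫ shiftArrow ξ 0) ∘
        (((shiftFunctorZero (DCoh.D Z) ℤ).app N).symm.homToEquiv (Z := M)) := by
      funext φ
      simp only [Function.comp_apply, Iso.homToEquiv_apply, Iso.homToEquiv_symm_apply,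
        Functor.map_comp, Category.assoc, Iso.symm_hom, Iso.app_inv, Iso.symm_inv, Iso.app_hom]
      rw [← Category.assoc ((Dual3.pushD i).map ((shiftFunctorZero (DCoh.D Z) ℤ).inv.app N)),
        shiftArrow_zero]
      simp
    rw [h2]
    exact (Equiv.bijective _).comp (Function.Bijective.comp h1 (Equiv.bijective _))

/-- Universality is invariant under isomorphisms. -/
lemma IsUnivArrow.of_iso {N N' : DCoh.D Z} {F F' : DCoh.D W} {ξ : (Dual3.pushD i).obj N ⟶ F}
    {ξ' : (Dual3.pushD i).obj N' ⟶ F'} (h : IsUnivArrow i ξ) (e : N ≅ N') (e' : F ≅ F')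
    (w : (Dual3.pushD i).map e.hom ≫ ξ' = ξ ≫ e'.hom) : IsUnivArrow i ξ' := by
  intro M
  have h2 : (fun φ : M ⟶ N' => (Dual3.pushD i).map φ ≫ ξ') =
      (e'.homToEquiv (Z := (Dual3.pushD i).obj M)) ∘
      (fun φ : M ⟶ N => (Dual3.pushD i).map φ ≫ ξ) ∘ (e.homToEquiv (Z := M)).symm := by
    funext φ
    simp only [Function.comp_apply, Iso.homToEquiv_apply, Iso.homToEquiv_symm_apply,
      Functor.map_comp, Category.assoc, ← w]
    rw [← Category.assoc ((Dual3.pushD i).map e.inv), ← Functor.map_comp]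
    simp
  rw [h2]
  exact (Equiv.bijective _).comp ((h M).comp (Equiv.bijective _))

/-- A morphism between universal pairs is an isomorphism. -/
lemma IsUnivArrow.isIso {N N' : DCoh.D Z} {F : DCoh.D W} {ξ : (Dual3.pushD i).obj N ⟶ F}
    {ξ' : (Dual3.pushD i).obj N' ⟶ F} (h : IsUnivArrow i ξ) (h' : IsUnivArrow i ξ') (φ : N ⟶ N')
    (w : (Dual3.pushD i).map φ ≫ ξ' = ξ) : IsIso φ := by
  obtain ⟨ψ, hψ⟩ := (h N').2 ξ'
  dsimp only at hψ
  refine ⟨ψ, (h N).1 ?_, (h' N').1 ?_⟩
  · dsimp only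
    rw [Functor.map_comp, Category.assoc, hψ, w, CategoryTheory.Functor.map_id, Category.id_comp]
  · dsimp only
    rw [Functor.map_comp, Category.assoc, w, hψ, CategoryTheory.Functor.map_id, Category.id_comp]

end Def

section Restrict

variable {Z W Z' W' : Scheme.{u}} (i : Z ⟶ W) (i' : Z' ⟶ W') (jZ : Z' ⟶ Z) (jW : W' ⟶ W)
  [IsOpenImmersion jZ] [IsOpenImmersion jW]
  [PreservesFiniteLimits (Scheme.Modules.pushforward i)]
  [PreservesFiniteColimits (Scheme.Modules.pushforward i)]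
  [PreservesFiniteLimits (Scheme.Modules.pushforward i')]
  [PreservesFiniteColimits (Scheme.Modules.pushforward i')]

/-- `i_*` on derived categories commutes with restriction to opens of the target. -/
noncomputable def pushRestrictD (h : IsPullback jZ i' i jW) :
    Dual3.pushD i ⋙ restrictD jW ≅ restrictD jZ ⋙ Dual3.pushD i' :=
  ExactD.mapDComp (H := Scheme.Modules.pushforward i ⋙ restrictFunctor jW) (Iso.refl _) ≪≫
    (ExactD.mapDComp (H := Scheme.Modules.pushforward i ⋙ restrictFunctor jW)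
      (Dcoh.PushRestrict.pushRestrictIsoOfIsPullback i i' jZ jW h).symm).symm

variable {i i' jZ jW}

/-- The restriction of an arrow `i_* N ⟶ F` to opens. -/
noncomputable def resArrow (h : IsPullback jZ i' i jW) {N : DCoh.D Z} {F : DCoh.D W}
    (ξ : (Dual3.pushD i).obj N ⟶ F) :
    (Dual3.pushD i').obj ((restrictD jZ).obj N) ⟶ (restrictD jW).obj F :=
  (pushRestrictD i i' jZ jW h).inv.app N ≫ (restrictD jW).map ξ

lemma map_resArrow (h : IsPullback jZ i' i jW) {M N : DCoh.D Z} {F : DCoh.D W}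
    (φ : M ⟶ N) (ξ : (Dual3.pushD i).obj N ⟶ F) :
    (Dual3.pushD i').map ((restrictD jZ).map φ) ≫ resArrow h ξ =
      resArrow h ((Dual3.pushD i).map φ ≫ ξ) := by
  rw [resArrow, resArrow, Functor.map_comp, ← Category.assoc, ← Category.assoc]
  congr 1
  exact (pushRestrictD i i' jZ jW h).inv.naturality φ

lemma resArrow_comp (h : IsPullback jZ i' i jW) {N : DCoh.D Z} {F F' : DCoh.D W}
    (ξ : (Dual3.pushD i).obj N ⟶ F) (α : F ⟶ F') :
    resArrow h (ξ ≫ α) = resArrow h ξ ≫ (restrictD jW).map α := by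
  rw [resArrow, resArrow, Functor.map_comp, Category.assoc]

omit [IsOpenImmersion jZ] [IsOpenImmersion jW]
  [PreservesFiniteLimits (Scheme.Modules.pushforward i')]
  [PreservesFiniteColimits (Scheme.Modules.pushforward i')] in
/-- The support of `i_* M` lies over the support of `M`. -/
lemma supp_pushD_subset [IsClosedImmersion i] (h : IsPullback jZ i' i jW) (M : DCoh.D Z)
    (hM : ∀ n, supp M n ⊆ Set.range jZ) (n : ℤ) :
    supp ((Dual3.pushD i).obj M) n ⊆ Set.range jW := by
  have e : DCoh.HD ((Dual3.pushD i).obj M) n ≅ (Scheme.Modules.pushforward i).obj (DCoh.HD M n) :=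
    (ExactD.mapHomology (Scheme.Modules.pushforward i) n).app M
  rw [supp, CohqB.DevSupport.support_congr e, Sga67.ClosedPush.support_pushforward]
  rintro _ ⟨z, hz, rfl⟩
  obtain ⟨z', rfl⟩ := hM n hz
  refine ⟨i' z', ?_⟩
  exact (congr($(h.w) z')).symm

/-- **Universal arrows restrict to opens.** -/
theorem IsUnivArrow.restrict [IsClosedImmersion i] (h : IsPullback jZ i' i jW) {N : DCoh.D Z}
    {F : DCoh.D W} {ξ : (Dual3.pushD i).obj N ⟶ F} (hξ : IsUnivArrow i ξ) :
    IsUnivArrow i' (resArrow h ξ) := by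
  intro M'
  let M := (ExtZeroD.shriekD jZ).obj M'
  refine bijective_of_iso_source _ (ExtZeroD.unitIso jZ M').symm ?_
  have hM := ExtZeroD.supp_shriekD_subset_range jZ M'
  have h1 := ExtZeroD.bijective_restrictD_map jZ M N hM
  have h2 := ExtZeroD.bijective_restrictD_map jW ((Dual3.pushD i).obj M) F
    (supp_pushD_subset h M hM)
  have h3 : (fun φ : (restrictD jZ).obj M ⟶ (restrictD jZ).obj N =>
      (Dual3.pushD i').map φ ≫ resArrow h ξ) ∘ (fun f : M ⟶ N => (restrictD jZ).map f) =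
      (((pushRestrictD i i' jZ jW h).app M).homFromEquiv (Z := (restrictD jW).obj F)) ∘
      (fun f : (Dual3.pushD i).obj M ⟶ F => (restrictD jW).map f) ∘
      (fun f : M ⟶ N => (Dual3.pushD i).map f ≫ ξ) := by
    funext f
    simp only [Function.comp_apply, map_resArrow]
    rfl
  exact (Function.Bijective.of_comp_iff _ h1).1
    (h3 ▸ (Equiv.bijective _).comp (h2.comp (hξ M)))

end Restrict

end Groth.Agent.Dual.H351.UnivArrow
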